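import Cfsg.Agent.H30.FiE.Down
import Cfsg.Agent.H30.GraphFi24A
import Cfsg.Agent.H664.Eight.Base

/-!
# `Fi24'` has at least eight character degrees (helper30, for S4899)

1, 57477, 249458, 35873145, 79452373, 1264015025, 3208653525, and 159402880 or half of it, 112168056 or half of it.
-/

set_option autoImplicit false

namespace Cfsg.Agent.H30.FiE.Eight

open Cfsg
open Cfsg.Spor (Fi24)
open Cfsg.Agent.H664.Eight

universe u

/-- a degree of `Fi24`, or the half of it, is a degree of `Fi24'` -/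
theorem down {D : ℕ} (h : ∃ χ : IrrCharacter Fi24, charDegree (χ : Fi24 → ℂ) = D) :
    ∃ c ∈ charDegrees Spor.Fi24', c = D ∨ 2 * c = D := by
  have hfin : Finite Fi24 := Cfsg.Agent.R08.FiTwentyFour.finite_Fi24
  obtain ⟨χ, hχ⟩ := h
  obtain ⟨c, ⟨θ, hθ⟩, ⟨k, hk⟩, h2⟩ := Cfsg.Agent.H424.DegTools.clifford_down (commutator Fi24)
    (d := charDegree (χ : Fi24 → ℂ)) ⟨χ, rfl⟩
  rw [Cfsg.Agent.R08.FiTwentyFour.index_commutator] at h2
  rw [hχ] at hk h2
  have hpos : 0 < D := by
    rw [← hχ]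
    exact Blocks.Basic.charDegree_pos χ.2
  have hc : 0 < c := by
    rcases Nat.eq_zero_or_pos c with h | h
    · rw [h, zero_mul] at hk; omega
    · exact h
  rw [hk, Nat.mul_div_cancel_left _ hc] at h2
  have h3 : charDegree (θ : Spor.Fi24' → ℂ) = c := hθ
  refine ⟨c, ⟨θ, h3⟩, ?_⟩
  rcases (Nat.dvd_prime Nat.prime_two).1 h2 with rfl | rfl
  · left; rw [hk, mul_one]
  · right; rw [hk, mul_comm]

theorem eight_model : Eight Spor.Fi24' := by
  have hc : Nat.card Spor.Fi24' = 1255205709190661721292800 := Cfsg.Agent.R08.FiTwentyFour.card_commutator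
  have hfin : Finite Spor.Fi24' := Nat.finite_of_card_ne_zero (by rw [hc]; norm_num)
  obtain ⟨χa, ha⟩ := Down.exists_down exists_a (by norm_num)
  obtain ⟨b, hb, hb'⟩ := down exists_b
  obtain ⟨χd, hd⟩ := Down.exists_down_d
  obtain ⟨χe, he⟩ := Down.exists_down_e
  obtain ⟨χf, hf⟩ := Down.exists_down_f
  obtain ⟨χg, hg⟩ := GraphFi24.exists_deg.1
  obtain ⟨χh, hh⟩ := GraphFi24.exists_deg.2
  refine eight_of_list [1, 57477, 249458, 35873145, 79452373, 1264015025, 3208653525, b] ?_ (by simp) ?_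
  · have h1 : b = 159402880 ∨ b = 79701440 := by omega
    rcases h1 with rfl | rfl <;> decide
  · intro d hd'
    simp only [List.mem_cons, List.not_mem_nil, or_false] at hd'
    rcases hd' with rfl | rfl | rfl | rfl | rfl | rfl | rfl | rfl
    · exact one_mem
    · exact ⟨χg, hg⟩
    · exact ⟨χh, hh⟩
    · exact ⟨χf, hf⟩
    · exact ⟨χa, ha⟩
    · exact ⟨χd, hd⟩
    · exact ⟨χe, he⟩
    · exact hb

/-- **`Fi24'`.** -/
theorem eight_fi24 {S : Type u} [Group S] (h : Spor.IsoFi24' S) : Eight S := by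
  obtain ⟨e⟩ := h
  exact eight_model.of_equiv e

end Cfsg.Agent.H30.FiE.Eight
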